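import Mathlib
import Cfsg.Agent.Chev.SzStruct

/-!
The sequence `s₀ = x`, `sₙ₊₁ = [y⁻¹ sₙ y, sₙ⁻¹]` is not eventually trivial in `SL₂(q)` (`q ≥ 4`),
`SL₃(3)` and the Suzuki groups.
-/

set_option autoImplicit false
set_option linter.unusedSectionVars false

namespace Cfsg.Agent.MinS.BWW

open Subgroup Matrix
open scoped MatrixGroups

variable {G : Type*} [Group G]

def step (y s : G) : G := (y⁻¹ * s * y) * (s⁻¹) * (y⁻¹ * s * y)⁻¹ * (s⁻¹)⁻¹

def seq (x y : G) (n : ℕ) : G := @Nat.rec (fun _ => G) x (fun _ s => step y s) n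

def Law (G : Type*) [Group G] : Prop := ∃ n : ℕ, ∀ x y : G, seq x y n = 1

theorem seq_succ (x y : G) (n : ℕ) : seq x y (n + 1) = step y (seq x y n) := rfl

theorem map_step {H : Type*} [Group H] (f : G →* H) (y s : G) :
    f (step y s) = step (f y) (f s) := by simp [step]

theorem map_seq {H : Type*} [Group H] (f : G →* H) (x y : G) (n : ℕ) :
    f (seq x y n) = seq (f x) (f y) n := by
  induction n with
  | zero => rfl
  | succ n ih => rw [seq_succ, seq_succ, map_step, ih]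

theorem Law.of_injective {H : Type*} [Group H] (h : Law H) (f : G →* H)
    (hf : Function.Injective f) : Law G := by
  obtain ⟨n, hn⟩ := h
  exact ⟨n, fun x y => hf (by rw [map_seq, hn, map_one])⟩

theorem Law.of_surjective {H : Type*} [Group H] (h : Law G) (f : G →* H)
    (hf : Function.Surjective f) : Law H := by
  obtain ⟨n, hn⟩ := h
  refine ⟨n, fun x y => ?_⟩
  obtain ⟨x, rfl⟩ := hf x
  obtain ⟨y, rfl⟩ := hf y
  rw [← map_seq, hn, map_one]

theorem Law.of_quotient_center (h : Law (G ⧸ center G)) : Law G := by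
  obtain ⟨n, hn⟩ := h
  refine ⟨n + 1, fun x y => ?_⟩
  have h1 : seq x y n ∈ center G := by
    rw [← QuotientGroup.eq_one_iff]
    exact (map_seq (QuotientGroup.mk' _) x y n).trans (hn _ _)
  rw [seq_succ, step, mul_assoc y⁻¹, ← mem_center_iff.1 h1 y]
  group

theorem law_of_solvable (h : Group.IsSolvable G) : Law G := by
  obtain ⟨n, hn⟩ := h
  refine ⟨n, fun x y => ?_⟩
  have key : ∀ k, seq x y k ∈ derivedSeries G k := by
    intro k
    induction k with
    | zero => exact mem_top _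
    | succ k ih =>
      exact commutator_mem_commutator
        (by simpa [seq] using (derivedSeries_normal G k).conj_mem _ ih y⁻¹) (inv_mem ih)
  simpa [hn] using key n

theorem not_law (P : G → Prop) (y : G) {x : G} (hx : P x) (hs : ∀ s, P s → P (step y s))
    (h1 : ¬ P 1) : ¬ Law G := by
  rintro ⟨n, hn⟩
  have key : ∀ k, P (seq x y k) := by
    intro k
    induction k with
    | zero => exact hx
    | succ k ih => exact hs _ ih
  exact h1 (hn x y ▸ key n)

/-! ### `SL₂` -/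

section SL2

variable {F : Type*} [Field F]

/-- the invariant condition in terms of `x = tr s` and `z = tr (s y)` -/
def Good (x z : F) : Prop :=
  x ≠ 0 ∧ z ≠ 0 ∧ x ^ 2 + z ^ 2 - 4 ≠ 0 ∧ ∀ t : F, t ≠ 0 → (x ^ 2 + z ^ 2 - 4) * t ^ 2 + 2 ≠ 0

theorem Good.step {x z : F} (h : Good x z) :
    Good ((x ^ 2 + z ^ 2 - 4) * z ^ 2 + 2) (-((x ^ 2 + z ^ 2 - 4) * x * z)) := by
  obtain ⟨h1, h2, h3, h4⟩ := h
  have h5 : z * (x ^ 2 + z ^ 2 - 4 + 2) ≠ 0 := mul_ne_zero h2 (by simpa using h4 1 one_ne_zero)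
  have e : ((x ^ 2 + z ^ 2 - 4) * z ^ 2 + 2) ^ 2 + (-((x ^ 2 + z ^ 2 - 4) * x * z)) ^ 2 - 4 =
      (x ^ 2 + z ^ 2 - 4) * (z * (x ^ 2 + z ^ 2 - 4 + 2)) ^ 2 := by ring
  refine ⟨h4 z h2, neg_ne_zero.2 (mul_ne_zero (mul_ne_zero h3 h1) h2), ?_, fun t ht => ?_⟩
  · rw [e]; exact mul_ne_zero h3 (pow_ne_zero _ h5)
  · rw [e, mul_assoc, ← mul_pow]; exact h4 _ (mul_ne_zero h5 ht)

theorem not_law_of_good {a b c d : F} (hd : a * d - b * c = 1) (h : Good (a + d) (c - b)) :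
    ¬ Law SL(2, F) := by
  let y : SL(2, F) := ⟨!![0, 1; -1, 0], by simp [det_fin_two]⟩
  refine not_law (fun s : SL(2, F) => Good (s.1 0 0 + s.1 1 1) (s.1 1 0 - s.1 0 1)) y
    (x := ⟨!![a, b; c, d], by simpa [det_fin_two]⟩) h (fun s hs => ?_) fun e => e.2.1 (by simp)
  have h1 := s.2
  rw [det_fin_two] at h1
  have hA : (y⁻¹ * s * y).1 = !![s.1 1 1, -s.1 1 0; -s.1 0 1, s.1 0 0] := by
    change (y.1).adjugate * s.1 * y.1 = _
    ext i j
    fin_cases i <;> fin_cases j <;>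
      simp [y, adjugate_fin_two, Matrix.mul_apply, Fin.sum_univ_two, vecMul, dotProduct]
  have key : (step y s).1 = !![s.1 1 1, -s.1 1 0; -s.1 0 1, s.1 0 0] *
      !![s.1 1 1, -s.1 0 1; -s.1 1 0, s.1 0 0] * !![s.1 0 0, s.1 1 0; s.1 0 1, s.1 1 1] *
      !![s.1 0 0, s.1 0 1; s.1 1 0, s.1 1 1] := by
    rw [step, inv_inv]
    change (y⁻¹ * s * y).1 * s.1.adjugate * (y⁻¹ * s * y).1.adjugate * s.1 = _
    rw [hA, adjugate_fin_two, adjugate_fin_two, ← Matrix.eta_fin_two s.1]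
    simp
  rw [key]
  generalize s.1 0 0 = p at *
  generalize s.1 0 1 = q at *
  generalize s.1 1 0 = r at *
  generalize s.1 1 1 = u at *
  convert hs.step using 1
  · simp
    linear_combination (2 * (p * u - q * r) + 2 - 4 * (r - q) ^ 2) * h1
  · simp
    linear_combination (4 * (p + u) * (r - q)) * h1

theorem exists_not_root [Finite F] (p : Polynomial F) (hp : p ≠ 0) (h : p.natDegree < Nat.card F) :
    ∃ t, p.eval t ≠ 0 := by
  by_contra hc
  push Not at hc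
  cases nonempty_fintype F
  exact hp (p.eq_zero_of_natDegree_lt_card_of_eval_eq_zero Function.injective_id hc
    (by rwa [Nat.card_eq_fintype_card] at h))

open Polynomial in
theorem not_law_SL2 [Finite F] (h4 : 4 ≤ Nat.card F) : ¬ Law SL(2, F) := by
  cases nonempty_fintype F
  by_cases h2 : (2 : F) = 0
  · obtain ⟨e, he⟩ := exists_not_root (X * (X - C 1) : F[X])
      (mul_ne_zero X_ne_zero (X_sub_C_ne_zero _)) (lt_of_le_of_lt (b := 2) (by compute_degree!)
        (by omega))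
    obtain ⟨x, hx⟩ := exists_not_root (X * (X - C (e + e⁻¹)) : F[X])
      (mul_ne_zero X_ne_zero (X_sub_C_ne_zero _)) (lt_of_le_of_lt (b := 2) (by compute_degree!)
        (by omega))
    simp only [eval_mul, eval_X, eval_sub, eval_C, ne_eq, mul_eq_zero, not_or] at he hx
    have h5 : (x + 0) ^ 2 + (e - -e⁻¹) ^ 2 - 4 = (x - (e + e⁻¹)) ^ 2 := by
      linear_combination (x * (e + e⁻¹) - 2) * h2
    refine not_law_of_good (a := x) (b := -e⁻¹) (c := e) (d := 0) (by simp [he.1])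
      ⟨by simpa using hx.1, fun e1 => he.2 ?_, by rw [h5]; exact pow_ne_zero _ hx.2, fun t ht => by
        rw [h5, h2, add_zero]; exact mul_ne_zero (pow_ne_zero _ hx.2) (pow_ne_zero _ ht)⟩
    refine pow_eq_zero_iff two_ne_zero |>.1 ?_
    have := mul_inv_cancel₀ he.1
    linear_combination e * e1 - this - e * h2
  have hc : ringChar F ≠ 2 := fun e => h2 (by
    have := ringChar.Nat.cast_ringChar (R := F)
    rw [e] at this; exact_mod_cast this)
  by_cases h5 : Nat.card F = 5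
  · have h50 : (5 : F) = 0 := by
      have := FiniteField.cast_card_eq_zero F
      rw [← Nat.card_eq_fintype_card, h5] at this; exact_mod_cast this
    refine not_law_of_good (a := 2) (b := -1) (c := 1) (d := 0) (by simp)
      ⟨by simpa using h2, by rw [show (1 : F) - -1 = 2 by ring]; exact h2, fun e => h2 ?_,
        fun t ht e => h2 ?_⟩
    · exact pow_eq_zero_iff two_ne_zero |>.1 (by linear_combination e)
    · have := FiniteField.pow_card_sub_one_eq_one t ht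
      rw [← Nat.card_eq_fintype_card, h5] at this
      linear_combination (4 * t ^ 2 - 2) * e - 16 * this - 2 * h50
  have h6 : 5 < Nat.card F := by
    have := FiniteField.odd_card_of_char_ne_two hc
    rw [← Nat.card_eq_fintype_card] at this
    omega
  obtain ⟨n, hn⟩ := FiniteField.exists_nonsquare hc
  have hm : ∀ r : F, (X ^ 2 - C r : F[X]) ≠ 0 := fun r => X_pow_sub_C_ne_zero two_pos r
  obtain ⟨μ, hμ⟩ := exists_not_root (X * (X ^ 2 - C (-1 - 2 * n)) * (X ^ 2 - C (1 - 2 * n)) : F[X])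
    (mul_ne_zero (mul_ne_zero X_ne_zero (hm _)) (hm _)) (lt_of_le_of_lt (by compute_degree!) h6)
  simp only [eval_mul, eval_X, eval_sub, eval_C, eval_pow, ne_eq, mul_eq_zero, not_or] at hμ
  obtain ⟨⟨a1, a2⟩, a3⟩ := hμ
  obtain ⟨l, hl⟩ : ∃ l : F, l * (μ ^ 2 - (-1 - 2 * n)) = 4 := ⟨4 / _, div_mul_cancel₀ _ a2⟩
  have h40 : (4 : F) ≠ 0 := by rw [show (4 : F) = 2 * 2 by norm_num]; exact mul_ne_zero h2 h2
  have hl0 : l ≠ 0 := by rintro rfl; exact h40 (by simpa using hl.symm)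
  have hn0 : n ≠ 0 := by rintro rfl; exact hn IsSquare.zero
  have hk : (2 - l) ^ 2 + (l * μ) ^ 2 - 4 = -2 * n * l ^ 2 := by linear_combination l * hl
  obtain ⟨α, β, hαβ⟩ := FiniteField.exists_root_sum_quadratic (f := X ^ 2)
    (g := X ^ 2 - C (-2 * n * l ^ 2)) (degree_X_pow 2) (degree_X_pow_sub_C two_pos _)
    (FiniteField.odd_card_of_char_ne_two hc)
  simp only [eval_pow, eval_X, eval_sub, eval_C] at hαβ
  have e1 : (2 - l + α) / 2 + (2 - l - α) / 2 = 2 - l := by field_simp; ring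
  have e2 : (l * μ + β) / 2 - (β - l * μ) / 2 = l * μ := by field_simp; ring
  refine not_law_of_good (a := (2 - l + α) / 2) (b := (β - l * μ) / 2) (c := (l * μ + β) / 2)
    (d := (2 - l - α) / 2) (by field_simp; linear_combination hk - hαβ) ?_
  rw [e1, e2]
  refine ⟨fun e => mul_ne_zero h2 a3 ?_, mul_ne_zero hl0 a1, ?_, fun t ht e => hn ?_⟩
  · linear_combination hl + (μ ^ 2 - (-1 - 2 * n)) * e
  · rw [hk]; exact mul_ne_zero (mul_ne_zero (neg_ne_zero.2 h2) hn0) (pow_ne_zero _ hl0)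
  · refine ⟨(l * t)⁻¹, ?_⟩
    rw [hk] at e
    field_simp
    exact mul_left_cancel₀ h2 (by linear_combination -e)

end SL2

/-! ### `SL₃(3)` -/

theorem not_law_SL3Z : ¬ Law SL(3, ZMod 3) := by
  refine not_law (fun s => s.1 = !![0, 0, 1; 2, 1, 2; 1, 1, 2] ∨
    s.1 = !![2, 1, 0; 2, 2, 2; 1, 1, 0] ∨ s.1 = !![1, 1, 0; 1, 1, 1; 0, 2, 0])
    ⟨!![1, 0, 0; 0, 2, 2; 0, 1, 0], by decide⟩ (x := ⟨!![0, 0, 1; 2, 1, 2; 1, 1, 2], by decide⟩)
    (Or.inl rfl) ?_ (by decide)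
  rintro ⟨s, hs⟩ (rfl | rfl | rfl)
  · right; left; revert hs; decide +kernel
  · right; right; revert hs; decide +kernel
  · left; revert hs; decide +kernel

theorem not_law_SL33 {F : Type*} [Field F] [Fintype F] (h : Fintype.card F = 3) :
    ¬ Law SL(3, F) := fun hl => by
  have : Fact (Nat.Prime 3) := ⟨Nat.prime_three⟩
  let e := ZMod.ringEquivOfPrime F Nat.prime_three h
  exact not_law_SL3Z (hl.of_injective (SpecialLinearGroup.map e.toRingHom) fun a b hab =>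
    Subtype.ext (Matrix.map_injective e.injective (congrArg Subtype.val hab)))

/-! ### Suzuki groups -/

section Sz

open Chev Chev.Suz

variable {F : Type*} [Field F] {m : ℕ} [hSz : SzField F m]

theorem uu_comm (a b c : F) : uu a b * uu 0 c = uu 0 c * uu a b := by
  rw [uu_mul, uu_mul, uu_inj]; simp [add_comm]

theorem cor_conj (a b : F) (g : Sz F m) : mat (uu a b * g * (uu a b)⁻¹) 3 0 = mat g 3 0 := by
  rw [uu_inv]
  simp [uMat, Matrix.mul_apply, Fin.sum_univ_four, vecMul, dotProduct]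

theorem tr_conj (k g : Sz F m) : (mat (k * g * k⁻¹)).trace = (mat g).trace := by
  rw [mat_mul, trace_mul_comm, ← mat_mul, inv_mul_cancel_left]

theorem inv_cell (l : Fˣ) (a b : F) : mat (hh l * tt F * uu a b) 3 0 = (l * th F l)⁻¹ ∧
    (mat (hh l * tt F * uu a b)).trace = (l : F)⁻¹ * th F a + (l * th F l)⁻¹ * ff a b ∧
    (mat (hh l * tt F * uu a b * uu 0 1)).trace =
      (l : F)⁻¹ * th F a + (l * th F l)⁻¹ * (ff a b + a + 1) := by
  refine ⟨?_, ?_, ?_⟩ <;>
    simp [uMat, hMat, suzukiForm, Matrix.mul_apply, Fin.sum_univ_four, trace, ff]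
  ring

theorem inv_step (β b : F) :
    mat (uu 0 1 * (tt F * uu 0 β * tt F) * uu 0 (1 + b) * (tt F * uu 0 β * tt F) * uu 0 b) 3 0 =
      th F β ^ 2 * (th F b + 1) ∧
    (mat (uu 0 1 * (tt F * uu 0 β * tt F) * uu 0 (1 + b) * (tt F * uu 0 β * tt F) * uu 0 b)).trace =
      th F β ^ 2 * (th F b + 1) ^ 2 ∧
    (mat (uu 0 1 * (tt F * uu 0 β * tt F) * uu 0 (1 + b) * (tt F * uu 0 β * tt F) * uu 0 b *
      uu 0 1)).trace = th F β ^ 2 * (th F b + 1) * th F b := by
  have hw : mat (tt F * uu 0 β * tt F) = !![1, 0, 0, 0; 0, 1, 0, 0; β, 0, 1, 0; th F β, β, 0, 1] := by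
    ext i j
    fin_cases i <;> fin_cases j <;>
      simp [uMat, suzukiForm, Matrix.mul_apply, Fin.sum_univ_four, ff]
  generalize tt F * uu 0 β * tt F = w at hw
  refine ⟨?_, ?_, ?_⟩ <;>
    simp [hw, uMat, Matrix.mul_apply, Fin.sum_univ_four, trace, ff] <;> grind

theorem not_law_Sz : ¬ Law (Sz F m) := by
  obtain ⟨b₀, h0, h1⟩ := exists_ne_zero_one F
  refine not_law (fun s : Sz F m => ∃ (c d b : F) (l : Fˣ), b ≠ 0 ∧ b ≠ 1 ∧
    s = uu c d * (hh l * tt F * uu 0 b) * (uu c d)⁻¹) (uu 0 1) (x := hh 1 * tt F * uu 0 b₀)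
    ⟨0, 0, b₀, 1, h0, h1, by simp⟩ ?_ ?_
  · rintro _ ⟨c, d, b, l, hb0, hb1, rfl⟩
    obtain ⟨β, hβ, hl⟩ : ∃ β : F, β ≠ 0 ∧ hh l⁻¹ * uu 0 1 * hh l = uu 0 β :=
      ⟨((l⁻¹ : Fˣ) : F) ^ 2 * th F (l⁻¹ : Fˣ) * 1, by simp,
        by simpa [hh_inv] using hh_conj_uu l⁻¹ (0 : F) 1⟩
    have hy : (uu (0 : F) 1)⁻¹ = uu 0 1 := by simp [uu_inv]
    have hb : (uu (0 : F) b)⁻¹ = uu 0 b := by simp [uu_inv]
    have e1 : step (uu 0 1) (hh l * tt F * uu 0 b) =
        uu 0 1 * (tt F * uu 0 β * tt F) * uu 0 (1 + b) * (tt F * uu 0 β * tt F) * uu 0 b := by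
      have e2 : uu (0 : F) (1 + b) = uu 0 1 * uu 0 b := by simp [uu_mul]
      have e3 : hh l * tt F = tt F * hh l⁻¹ := by rw [tt_mul_hh, inv_inv]
      have e4 : uu (0 : F) b * uu 0 1 * uu 0 b = uu 0 1 := by
        rw [uu_comm, mul_assoc, mul_eq_one_iff_inv_eq.2 hb, mul_one]
      rw [step, ← hl, e2]
      simp only [_root_.mul_inv_rev, inv_inv, hy, hb, tt_inv, hh_inv]
      calc _ = uu 0 1 * (hh l * tt F) * (uu 0 b * uu 0 1 * uu 0 b) * (tt F * hh l⁻¹) * uu 0 1 *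
          uu 0 b * tt F * hh l⁻¹ * uu 0 1 * (hh l * tt F) * uu 0 b := by simp only [mul_assoc]
        _ = _ := by rw [e4, ← e3]; nth_rewrite 1 [e3]; simp only [mul_assoc]
    have e5 : step (uu 0 1) (uu c d * (hh l * tt F * uu 0 b) * (uu c d)⁻¹) =
        uu c d * step (uu 0 1) (hh l * tt F * uu 0 b) * (uu c d)⁻¹ := by
      have := map_step (MulAut.conj (uu c d)).toMonoidHom (uu 0 1) (hh l * tt F * uu 0 b)
      simp only [MulEquiv.coe_toMonoidHom, MulAut.conj_apply] at this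
      rw [this, uu_comm, mul_inv_cancel_right]
    obtain ⟨i1, i2, i3⟩ := inv_step β b
    rw [e5, e1]
    generalize uu 0 1 * (tt F * uu 0 β * tt F) * uu 0 (1 + b) * (tt F * uu 0 β * tt F) * uu 0 b = r
      at i1 i2 i3
    have hB0 : th F b ≠ 0 := th_ne_zero hb0
    have hB1 : th F b + 1 ≠ 0 := fun e => hb1 (th_injective (by rw [map_one]; grind))
    have hγ : th F β ≠ 0 := th_ne_zero hβ
    rcases bruhat r with ⟨a, a', k, rfl⟩ | ⟨a, a', c', d', k, rfl⟩
    · refine (mul_ne_zero (pow_ne_zero 2 hγ) hB1 ?_).elim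
      rw [← i1]
      simp [uMat, hMat, Matrix.mul_apply, Fin.sum_univ_four]
    obtain ⟨p, q, e6⟩ : ∃ p q : F, (hh k)⁻¹ * uu c' d' * hh k * uu a a' = uu p q :=
      ⟨_, _, by rw [hh_inv, hh_mul_uu, mul_assoc _ _ (hh k), hh_mul, inv_mul_cancel, hh_one,
        mul_one, uu_mul]⟩
    have e7 : uu a a' * tt F * (uu c' d' * hh k) =
        uu a a' * (hh k⁻¹ * tt F * uu p q) * (uu a a')⁻¹ := by
      rw [← tt_mul_hh, ← e6]; group
    obtain ⟨j1, j2, j3⟩ := inv_cell k⁻¹ p q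
    rw [e7] at i1 i2 i3 ⊢
    rw [cor_conj, j1] at i1
    rw [tr_conj, j2, i1] at i2
    rw [show uu a a' * (hh k⁻¹ * tt F * uu p q) * (uu a a')⁻¹ * uu 0 1 =
      uu a a' * (hh k⁻¹ * tt F * uu p q * uu 0 1) * (uu a a')⁻¹ by
        rw [uu_inv, mul_assoc, uu_comm]; simp only [mul_assoc], tr_conj, j3, i1] at i3
    have hp : p = 0 := by
      refine mul_left_cancel₀ (mul_ne_zero (pow_ne_zero 2 hγ) hB1) ?_
      grind
    subst hp
    have hq : th F q = th F b + 1 := by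
      refine mul_left_cancel₀ (mul_ne_zero (pow_ne_zero 2 hγ) hB1) ?_
      simp only [ff, map_zero] at i2
      linear_combination i2
    obtain ⟨c'', d'', e8⟩ : ∃ c'' d'' : F, uu c d * uu a a' = uu c'' d'' := ⟨_, _, uu_mul _ _ _ _⟩
    refine ⟨c'', d'', q, k⁻¹, ?_, ?_, by rw [← e8]; group⟩
    · rintro rfl; exact hB1 (by simpa using hq.symm)
    · rintro rfl; exact hB0 (by simpa using hq.symm)
  · rintro ⟨c, d, b, l, -, -, e⟩
    have := cor_conj c d (hh l * tt F * uu 0 b)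
    rw [← e, (inv_cell l 0 b).1] at this
    exact inv_ne_zero (mul_ne_zero l.ne_zero (th_ne_zero l.ne_zero)) (by simpa using this.symm)

end Sz

end Cfsg.Agent.MinS.BWW
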